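import Cfsg.Agent.H602.DP.CaseC
import Cfsg.Agent.H572.DP.CaseB
import Cfsg.Agent.H462.DPK.LM
import Cfsg.Agent.H680.DP.ExTS
import Cfsg.Agent.H990.DP.WPerm
import Cfsg.Agent.H735.DP.List
import Cfsg.Agent.H503.DP.CntLe

/-!
# S4247, row `PSp` in characteristic `p ∉ π` (helper602)
-/

set_option autoImplicit false
set_option linter.unusedSectionVars false

namespace Cfsg.Agent.H602.DP

open Module Subgroup Cfsg Matrix Cfsg.Agent.H167.OP Cfsg.Agent.H170.HL Cfsg.Agent.H988.CPi Cfsg.Agent.H571.RV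
  Cfsg.Agent.H572.RV Cfsg.Agent.H817.DPi

universe u

/-- **Row `PSp`** modulo `excl` and `psp_ne` -/
theorem row_psp_of {π : Set ℕ} {S : Type u} [Group S] [Finite S] [IsSimpleGroup S] {p : ℕ} (hp : p.Prime) (hpπ : p ∉ π)
    (hexc : 2 ∉ π → ∀ (X : Type u) [Group X] [Finite X] [IsSimpleGroup X], ¬ IsMulCommutative X →
      IsLieTypeChar p X → Cls π X → (∀ P : Subgroup X, IsPiHall π P → Group.IsNilpotent P) ∨
      Nonempty (X ≃* Matrix.ProjectiveSpecialLinearGroup (Fin 3) (ZMod 2)) ∨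
      Nonempty (X ≃* Matrix.ProjectiveSpecialLinearGroup (Fin 5) (ZMod 2)))
    (hne : ∀ (F : Type) [Field F] [Fintype F] (k : ℕ), 3 ≤ k →
      ¬ Nonempty (PSp k F ≃* Matrix.ProjectiveSpecialLinearGroup (Fin 3) (ZMod 2)) ∧
      ¬ Nonempty (PSp k F ≃* Matrix.ProjectiveSpecialLinearGroup (Fin 5) (ZMod 2)))
    (h : IsPSpChar p S) : Row π S := by
  classical
  intro P K B hC hIH
  exfalso
  have hna : ¬ IsMulCommutative S := by
    intro hc
    apply hC.nnil
    have h1 : ∀ a b : P, a * b = b * a := fun a b => Subtype.ext (hc.is_comm.comm (a : S) b)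
    exact @CommGroup.isNilpotent P { (inferInstance : Group P) with mul_comm := h1 }
  have hex := hexc hC.two
  obtain ⟨F, _, _, hchar, m, hm, hm2, ⟨e⟩⟩ := h
  have : Finite (symplecticGroup (Fin m) F) := inferInstance
  let φ : symplecticGroup (Fin m) F →* S :=
    (e.symm : Cfsg.PSp m F →* S).comp
      (QuotientGroup.mk' (Subgroup.center (symplecticGroup (Fin m) F)))
  have hφ : Function.Surjective φ :=
    e.symm.surjective.comp (QuotientGroup.mk'_surjective _)
  have hker : ∀ k, φ k = 1 ↔ k ∈ center (symplecticGroup (Fin m) F) := by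
    intro k
    rw [← QuotientGroup.eq_one_iff]
    constructor
    · intro h
      exact e.symm.injective (h.trans (map_one e.symm).symm)
    · intro h
      show e.symm (QuotientGroup.mk' _ k) = 1
      rw [QuotientGroup.mk'_apply, h, map_one]
  have hker2 : ∀ k, φ k = 1 → k * k = 1 ∧ ∀ x, k * x = x * k := by
    intro k hk
    have h1 := (hker k).mp hk
    refine ⟨?_, fun x => (Subgroup.mem_center_iff.mp h1 x).symm⟩
    apply Subtype.ext
    show (k : Matrix (Fin m ⊕ Fin m) (Fin m ⊕ Fin m) F) * (k : Matrix (Fin m ⊕ Fin m) (Fin m ⊕ Fin m) F) = 1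
    rcases Cfsg.Agent.ClassicalGeometry.SympInvolutions.center_eq h1 with h | h
    · rw [h, one_mul]
    · rw [h, neg_mul_neg, one_mul]
  obtain ⟨H, hH, hHP⟩ := Cfsg.Agent.H462.DPK.exists_hall_over φ hφ (fun k hk => (hker2 k hk).2) hC.two hC.hall
  have hnn : ¬ Group.IsNilpotent H := by
    intro hn
    apply hC.nnil
    rw [← hHP]
    exact Group.nilpotent_of_surjective (φ.subgroupMap H) (φ.subgroupMap_surjective H)
  obtain ⟨r, t, T, hr, hr3, hrt, -, hTS, hTH, hn, hnc, hrel⟩ :=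
    Cfsg.Agent.H680.DP.exists_TS (isoG_sp m) hC.two (cast_ne hp hpπ) hH hnn
  have hHo : Odd (Nat.card H) := by
    by_contra ho
    rw [Nat.not_odd_iff_even, even_iff_two_dvd] at ho
    exact hC.two (hH.1 2 Nat.prime_two ho)
  obtain ⟨k, h2k, hkd⟩ := Cfsg.Agent.H990.DP.weights_perm hTS.toIsoG.toFRep hTS.card_odd hTS.card_ne hTS.ab hHo hn
  by_cases h0 : Orth (SpRow.frm m F) (CV (rep (SpRow.inc m F)) T) = ⊥
  · refine caseC hna e hC hr hr3 hrt hTS hnc hrel h2k hkd h0 ?_ ?_
    · intro K' hK' hc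
      rw [← hHP] at hc ⊢
      exact Cfsg.Agent.H462.DPK.card_mul_le φ hφ hker2 hC.two hH.1 hTH hK' hc
    · intro h1 h2 h3
      exact Cfsg.Agent.H735.DP.exists_list_of hTS (fun U hU u hu hi c hc => eigen hTS hU hu hi hc)
        (fun U hU => Cfsg.Agent.H503.DP.cnt_le hTS hU) h1 h2 h3
  · have hk : 3 ≤ k := by
      obtain ⟨s, hs, hsd⟩ := Nat.exists_prime_and_dvd (n := (centralizer (T : Set (symplecticGroup (Fin m) F))).relIndex H)
        (fun h => hnc (Subgroup.relIndex_eq_one.mp h))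
      have h1 := hrel s hs hsd
      subst h1
      have := hs.dvd_factorial.mp (hsd.trans hkd)
      omega
    exact Cfsg.Agent.H572.DP.caseB hna hp hm φ hφ hker hC hIH hH hHP hr hrt hTS hTH hn hnc hrel hk h2k h0
      (fun u hup hu x hx => Cfsg.Agent.H735.DP.pel_of hTS (fun U hU u hu hi c hc => eigen hTS hU hu hi hc)
        (fun U hU u hu => map_mem hTS hU hu) hp hu hup x hx) hex (fun k hk => hne F k hk)

end Cfsg.Agent.H602.DP
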